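import Cfsg.Agent.Lib.Misc.ExForm

/-!
# Groups `2^(1+4)_-.S₄` as double covers of the group of signed permutations
-/

set_option autoImplicit false
set_option linter.unusedSectionVars false

namespace Cfsg.Lib.L34
open Subgroup Cfsg.Lib Equiv

/-- signed permutations -/
@[ext] structure SW where
  p : Perm (Fin 4)
  a : Fin 4 → ZMod 2

namespace SW
instance : DecidableEq SW := fun u w => decidable_of_iff
  (u.p 0 = w.p 0 ∧ u.p 1 = w.p 1 ∧ u.p 2 = w.p 2 ∧ u.p 3 = w.p 3 ∧ u.a 0 = w.a 0 ∧ u.a 1 = w.a 1 ∧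
    u.a 2 = w.a 2 ∧ u.a 3 = w.a 3)
  ⟨fun h => SW.ext (Equiv.ext fun i => by fin_cases i <;> simp [h]) (funext fun i => by
    fin_cases i <;> simp [h]), fun h => by simp [h]⟩
/-- fast addition -/
def za (a b : ZMod 2) : ZMod 2 := (Fin.add a b : Fin 2)
instance : Mul SW := ⟨fun u w => ⟨w.p.trans u.p, fun i => za (w.a i) (u.a (w.p i))⟩⟩
instance : One SW := ⟨⟨Equiv.refl _, fun _ => 0⟩⟩
instance : Inv SW := ⟨fun u => ⟨u.p.symm, fun i => u.a (u.p.symm i)⟩⟩
@[simp] theorem mul_p (u w : SW) : (u * w).p = u.p * w.p := rfl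
@[simp] theorem mul_a (u w : SW) (i : Fin 4) : (u * w).a i = w.a i + u.a (w.p i) := rfl
@[simp] theorem one_p : (1 : SW).p = 1 := rfl
@[simp] theorem one_a (i : Fin 4) : (1 : SW).a i = 0 := rfl
@[simp] theorem inv_p (u : SW) : u⁻¹.p = u.p⁻¹ := rfl
@[simp] theorem inv_a (u : SW) (i : Fin 4) : u⁻¹.a i = u.a (u.p⁻¹ i) := rfl
instance : Group SW := Group.ofLeftAxioms (fun _ _ _ => by ext <;> simp [add_assoc])
  (fun _ => by ext <;> simp) fun _ => by ext <;> simp [CharTwo.add_self_eq_zero]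
/-- fast vectors -/
def f4 {α : Type} (a b c d : α) (i : Fin 4) : α :=
  cond (Nat.beq i.val 0) a (cond (Nat.beq i.val 1) b (cond (Nat.beq i.val 2) c d))
/-- explicit permutations -/
def pm (a b c d a' b' c' d' : Fin 4) (h1 : ∀ i, f4 a' b' c' d' (f4 a b c d i) = i := by decide)
    (h2 : ∀ i, f4 a b c d (f4 a' b' c' d' i) = i := by decide) : Perm (Fin 4) :=
  ⟨f4 a b c d, f4 a' b' c' d', h1, h2⟩
/-- all permutations -/
def perms : List (Perm (Fin 4)) :=
  [pm 0 1 2 3 0 1 2 3, pm 0 1 3 2 0 1 3 2, pm 0 2 1 3 0 2 1 3, pm 0 2 3 1 0 3 1 2,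
    pm 0 3 1 2 0 2 3 1, pm 0 3 2 1 0 3 2 1, pm 1 0 2 3 1 0 2 3, pm 1 0 3 2 1 0 3 2,
    pm 1 2 0 3 2 0 1 3, pm 1 2 3 0 3 0 1 2, pm 1 3 0 2 2 0 3 1, pm 1 3 2 0 3 0 2 1,
    pm 2 0 1 3 1 2 0 3, pm 2 0 3 1 1 3 0 2, pm 2 1 0 3 2 1 0 3, pm 2 1 3 0 3 1 0 2,
    pm 2 3 0 1 2 3 0 1, pm 2 3 1 0 3 2 0 1, pm 3 0 1 2 1 2 3 0, pm 3 0 2 1 1 3 2 0,
    pm 3 1 0 2 2 1 3 0, pm 3 1 2 0 3 1 2 0, pm 3 2 0 1 2 3 1 0, pm 3 2 1 0 3 2 1 0]
/-- fast enumeration -/
def fp : Fintype (Perm (Fin 4)) := ⟨⟨perms, by decide +kernel⟩, by decide +kernel⟩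
/-- coordinates -/
def eqv : Perm (Fin 4) × ZMod 2 × ZMod 2 × ZMod 2 × ZMod 2 ≃ SW :=
  ⟨fun x => ⟨x.1, f4 x.2.1 x.2.2.1 x.2.2.2.1 x.2.2.2.2⟩, fun w => (w.p, w.a 0, w.a 1, w.a 2, w.a 3),
    fun _ => rfl, fun _ => SW.ext rfl (by ext i; fin_cases i <;> rfl)⟩
instance : Fintype SW := @Fintype.ofEquiv _ _ (@instFintypeProd _ _ fp _) eqv
theorem card : Nat.card SW = 384 := by
  rw [← Nat.card_congr eqv]; simp [Fintype.card_perm, Nat.factorial]
end SW

variable {G : Type*} [Group G]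

/-- powers of an involution -/
def iv (p : G) (i : ZMod 2) : G := p ^ i.val

@[simp] theorem iv_zero (p : G) : iv p 0 = 1 := by simp [iv]
@[simp] theorem iv_one (p : G) : iv p 1 = p := by simp [iv, ZMod.val_one]
theorem iv_add {p : G} (h : p * p = 1) (i j : ZMod 2) : iv p (i + j) = iv p i * iv p j := by
  rcases h9_zmod2_cases i with rfl | rfl <;> rcases h9_zmod2_cases j with rfl | rfl <;>
    simp [show (1 + 1 : ZMod 2) = 0 from rfl, h]
theorem iv_comm {p q : G} (h : Commute p q) (i j : ZMod 2) : Commute (iv p i) (iv q j) :=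
  h.pow_pow _ _

theorem iv_cz {z : G} (cz : ∀ g, g * z = z * g) (g : G) (s : ZMod 2) : g * iv z s = iv z s * g :=
  (Commute.pow_right (cz g) _).eq

theorem exists_e8 {p q r : G} (hp : p * p = 1) (hq : q * q = 1) (hr : r * r = 1) (h1 : Commute p q)
    (h2 : Commute p r) (h3 : Commute q r) (hi : ∀ i j k, iv p i * (iv q j * iv r k) = 1 →
      i = 0 ∧ j = 0 ∧ k = 0) : ∃ A : Subgroup G, IsElementaryAbelian 2 A ∧ Nat.card A = 8 := by
  let f : Multiplicative (ZMod 2 × ZMod 2 × ZMod 2) →* G := MonoidHom.mk'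
    (fun x => iv p x.toAdd.1 * (iv q x.toAdd.2.1 * iv r x.toAdd.2.2)) fun x y => by
      simp only [toAdd_mul, Prod.fst_add, Prod.snd_add, iv_add hp, iv_add hq, iv_add hr]
      rw [(iv_comm h3 _ _).mul_mul_mul_comm, Commute.mul_mul_mul_comm]
      exact (iv_comm h1 _ _).mul_right (iv_comm h2 _ _)
  refine ⟨f.range, ⟨inferInstance, ?_⟩, ?_⟩
  · rintro _ ⟨x, rfl⟩
    rw [← map_pow, show x ^ 2 = 1 by revert x; decide, map_one]
  · rw [← Nat.card_congr (MonoidHom.ofInjective ((injective_iff_map_eq_one f).2 fun x hx => by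
      obtain ⟨e1, e2, e3⟩ := hi _ _ _ hx
      exact Multiplicative.toAdd.injective (Prod.ext e1 (Prod.ext e2 e3)))).toEquiv]
    simp

/-- no elementary abelian subgroup of order eight -/
def NoE8 (E : Subgroup G) (z : G) : Prop :=
  ∀ p ∈ E, ∀ q ∈ E, p * p = 1 → q * q = 1 → p * q = q * p →
    ∃ y ∈ ({p, q, p * q} : Set G), ∀ e ∈ E, y * e = e * y

theorem noE8 {E : Subgroup G} {z : G} (h : XS E z)
    (h8 : ∀ A : Subgroup E, IsElementaryAbelian 2 A → Nat.card A ≠ 8) : NoE8 E z := by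
  intro p hp q hq h1 h2 h3
  by_contra! h4
  obtain ⟨A, h5, h6⟩ := exists_e8 (G := E) (p := ⟨p, hp⟩) (q := ⟨q, hq⟩) (r := ⟨z, h.mem⟩)
    (Subtype.ext h1) (Subtype.ext h2) (Subtype.ext h.sq) (Subtype.ext h3)
    (Subtype.ext (h.central p hp)) (Subtype.ext (h.central q hq)) fun i j k e => by
      have kk : ∀ y ∈ ({p, q, p * q} : Set G), y ≠ 1 ∧ y * z ≠ 1 := fun y hy => by
        obtain ⟨e, he, h7⟩ := h4 y hy
        exact ⟨fun e => h7 (by simp [e]), fun e1 => h7 (by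
          rw [eq_inv_of_mul_eq_one_left e1, h.inv, h.central e he])⟩
      have := kk p (by simp)
      have := kk q (by simp)
      have := kk (p * q) (by simp)
      have := h.ne_one
      replace e := congrArg Subtype.val e
      rcases h9_zmod2_cases i with rfl | rfl <;> rcases h9_zmod2_cases j with rfl | rfl <;>
        rcases h9_zmod2_cases k with rfl | rfl <;> simp_all [← mul_assoc]
  exact h8 A h5 h6

set_option synthInstance.maxSize 2000 in
theorem exists_anti4 [Finite G] {E : Subgroup G} {z : G} (h : XS E z) (hc : Nat.card E = 32)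
    (h8 : NoE8 E z) : ∃ a b c d, Anti4 E a b c d := by
  have b0 : ∀ {a b : G}, h9bf a b ≠ 0 → h9bf a b = 1 := fun e => (h9_zmod2_cases _).resolve_left e
  obtain ⟨a, ha, b, hb, ab⟩ := h.nonab
  obtain ⟨c, hc, ca, cb, c1⟩ : ∃ c ∈ E, h9bf a c = 0 ∧ h9bf b c = 0 ∧ c ∉ zpowers z := by
    by_contra! h1
    have h2 := relIndex_inf_le (H := centralizer {a}) (K := centralizer {b}) (L := E)
    rw [h.relIndex_centralizer ha ⟨b, hb, ab⟩, h.relIndex_centralizer hb ⟨a, ha, Ne.symm ab⟩] at h2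
    have h3 := card_mul_index ((centralizer {a} ⊓ centralizer {b}).subgroupOf E)
    have h4 : Nat.card ((centralizer {a} ⊓ centralizer {b}).subgroupOf E) ≤ 2 := by
      rw [← h.orderOf, ← Nat.card_zpowers, ← card_map_of_injective E.subtype_injective]
      refine card_le_of_le ?_
      rintro _ ⟨x, hx, rfl⟩
      exact h1 x x.2 (h9bf_eq_zero.2 (mem_centralizer_singleton_iff.1 hx.1).symm)
        (h9bf_eq_zero.2 (mem_centralizer_singleton_iff.1 hx.2).symm)
    rw [hc] at h3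
    rw [relIndex] at h2
    nlinarith
  rw [← h9bf_eq_one] at ab
  obtain ⟨d, hd, da, db, cd⟩ : ∃ d ∈ E, h9bf a d = 0 ∧ h9bf b d = 0 ∧ h9bf c d = 1 := by
    obtain ⟨d, hd, e⟩ : ∃ d ∈ E, c * d ≠ d * c := by
      by_contra! h1
      exact c1 (h.mem_zpowers.2 (h.center c hc h1))
    have k : ∀ {x y : G} (i), x ∈ E → y ∈ E → h9bf x (iv y i) = i * h9bf x y := fun i _ _ => by
      rcases h9_zmod2_cases i with rfl | rfl <;> simp [h9bf_eq_zero]
    have m : ∀ {y : G} (i), y ∈ E → iv y i ∈ E := fun i hy => pow_mem hy _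
    refine ⟨d * (iv a (h9bf b d) * iv b (h9bf a d)), mul_mem hd (mul_mem (m _ ha) (m _ hb)), ?_⟩
    simp (config := { maxDischargeDepth := 5 }) only [h.bf_mul, k, ha, hb, hc, hd, m, mul_mem, h9bf_self, ab, h9bf_comm b a, h9bf_comm c a,
      h9bf_comm c b, ca, cb, h9bf_eq_one.2 e]
    generalize h9bf a d = x; generalize h9bf b d = y
    revert x y; decide
  have k8 : ∀ p ∈ E, ∀ q ∈ E, h9qf p = 0 → h9qf q = 0 → h9bf p q = 0 →
      (h9bf p a = 0 ∧ h9bf p b = 0 ∧ h9bf p c = 0 ∧ h9bf p d = 0) ∨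
      (h9bf q a = 0 ∧ h9bf q b = 0 ∧ h9bf q c = 0 ∧ h9bf q d = 0) ∨
      (h9bf (p * q) a = 0 ∧ h9bf (p * q) b = 0 ∧ h9bf (p * q) c = 0 ∧ h9bf (p * q) d = 0) := by
    intro p hp q hq h1 h2 h3
    obtain ⟨y, hy, e⟩ := h8 p hp q hq (h9qf_eq_zero.1 h1) (h9qf_eq_zero.1 h2) (h9bf_eq_zero.1 h3)
    have : h9bf y a = 0 ∧ h9bf y b = 0 ∧ h9bf y c = 0 ∧ h9bf y d = 0 := by
      simp only [h9bf_eq_zero]; exact ⟨e a ha, e b hb, e c hc, e d hd⟩
    rcases hy with rfl | rfl | rfl <;> simp only [this, and_self, true_or, or_true]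
  have k4 : ∀ p ∈ E, ∀ q ∈ E, ∀ r ∈ E, ∀ s ∈ E, h9qf p = 0 ∧ h9qf q = 0 ∧ h9qf r = 0 ∧ h9qf s = 0 ∧
      h9bf p q = 1 ∧ h9bf p r = 1 ∧ h9bf p s = 1 ∧ h9bf q r = 1 ∧ h9bf q s = 1 ∧ h9bf r s = 1 →
      ∃ a b c d, Anti4 E a b c d := fun p hp q hq r hr s hs ⟨h1, h2, h3, h4, h5⟩ =>
    ⟨p, q, r, s, hp, hq, hr, hs, h9qf_eq_zero.1 h1, h9qf_eq_zero.1 h2, h9qf_eq_zero.1 h3,
      h9qf_eq_zero.1 h4, h5.1, h5.2.1, h5.2.2.1, h5.2.2.2.1, h5.2.2.2.2.1, h5.2.2.2.2.2⟩
  have hab := mul_mem ha hb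
  have hcd := mul_mem hc hd
  have t1 := k8 a ha c hc
  have t2 := k8 a ha d hd
  have t3 := k8 b hb c hc
  have t4 := k8 b hb d hd
  have t5 := k8 _ (mul_mem ha hc) _ (mul_mem hb hd)
  have s1 := k4 a ha b hb _ (mul_mem hab hc) _ (mul_mem hab hd)
  have s2 := k4 a ha _ hab _ (mul_mem hb hc) _ (mul_mem hb hd)
  have s3 := k4 b hb _ hab _ (mul_mem ha hc) _ (mul_mem ha hd)
  have s4 := k4 c hc d hd _ (mul_mem hcd ha) _ (mul_mem hcd hb)
  have s5 := k4 c hc _ hcd _ (mul_mem hd ha) _ (mul_mem hd hb)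
  have s6 := k4 d hd _ hcd _ (mul_mem hc ha) _ (mul_mem hc hb)
  by_contra h0
  simp only [h0, h.bf_mul, h.mul_bf, h.qf_mul, ha, hb, hc, hd, hab, hcd, mul_mem, h9bf_self, ab, cd,
    h9bf_comm b a, h9bf_comm c a, h9bf_comm c b, h9bf_comm d a, h9bf_comm d b, h9bf_comm d c, ca, cb,
    da, db, add_zero, zero_add, one_ne_zero, and_true, true_and, and_false, false_and, or_self,
    show (1 + 1 : ZMod 2) = 0 from rfl, true_imp_iff] at t1 t2 t3 t4 t5 s1 s2 s3 s4 s5 s6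
  revert t1 t2 t3 t4 t5 s1 s2 s3 s4 s5 s6
  generalize h9qf a = x; generalize h9qf b = y; generalize h9qf c = u; generalize h9qf d = w
  revert x y u w; decide

theorem fix5 {H : Subgroup (Perm (Fin 5))} (h : Nat.card H = 24) {g : Perm (Fin 5)} (hg : g ∈ H)
    (h4 : g ^ 4 = 1) (h2 : g ^ 2 ≠ 1) : ∃ i, ∀ k ∈ H, k i = i := by
  obtain ⟨i, hi⟩ : ∃ i, ∀ j ≠ i, ∀ l ≠ i, ∃ n : Fin 4, (g ^ (n : ℕ)) j = l := by
    clear hg; revert g; decide +kernel
  refine ⟨i, fun k hk => by_contra fun hne => ?_⟩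
  have : MulAction.orbit H i = Set.univ := Set.eq_univ_of_forall fun l => by
    by_cases e : l = i
    · exact e ▸ MulAction.mem_orbit_self _
    obtain ⟨n, e⟩ := hi _ hne l e
    exact ⟨⟨g ^ (n : ℕ) * k, mul_mem (pow_mem hg _) hk⟩, e⟩
  have h1 := MulAction.index_stabilizer H i
  have h3 := (MulAction.stabilizer H i).index_dvd_card
  rw [h1, this, h] at h3
  simp at h3

/-- the structure of `2^(1+4)_-.S₄` -/
structure SP (G : Type*) [Group G] where
  z : G
  x : Fin 4 → G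
  θ : G →* SW
  zz : z * z = 1
  z1 : z ≠ 1
  cz : ∀ g, g * z = z * g
  xx : ∀ i, x i * x i = 1
  anti : ∀ i j, i ≠ j → x i * x j = x j * x i * z
  act : ∀ g i, g * x i * g⁻¹ = x ((θ g).p i) * iv z ((θ g).a i)
  surj : Function.Surjective θ
  ker : ∀ g, θ g = 1 → g = 1 ∨ g = z

theorem anti_inj {ι : Type*} {z : G} {x : ι → G} (zz : z * z = 1) (z1 : z ≠ 1) (cz : ∀ g, g * z = z * g)
    (anti : ∀ i j, i ≠ j → x i * x j = x j * x i * z) {i j : ι} {s t : ZMod 2}
    (e : x i * iv z s = x j * iv z t) : i = j ∧ s = t := by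
  have c := iv_cz cz
  obtain rfl : i = j := by
    by_contra hne
    have h1 : x j = x i * iv z (s + t) := by
      rw [iv_add zz, ← mul_assoc, e, mul_assoc, ← iv_add zz, CharTwo.add_self_eq_zero]; simp
    have := anti i j hne
    rw [h1, ← mul_assoc, mul_assoc (x i) (iv ..), ← c, ← mul_assoc] at this
    exact z1 (by simpa using this)
  refine ⟨rfl, ?_⟩
  rcases h9_zmod2_cases s with rfl | rfl <;> rcases h9_zmod2_cases t with rfl | rfl <;>
    simp_all [eq_comm]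

theorem anti4_invol [Finite G] {E : Subgroup G} {z a b c d : G} (h : XC E z) (hc : Nat.card E = 32)
    (A : Anti4 E a b c d) {y : G} (hy : y ∈ E) (hy2 : y * y = 1) :
    y = 1 ∨ y = z ∨ ∃ i s, y = ![a, b, c, d, a * (b * (c * d))] i * iv z s := by
  have C := A.coded h hc
  obtain ⟨c, hc, rfl⟩ := C.surj y hy
  rw [C.mul_eq_one_iff] at hy2
  have : ∀ c < 32, h9mQ c c = 0 → c ∈ [0, 16, 1, 17, 2, 18, 4, 20, 8, 24, 15, 31] := by
    decide +kernel
  have := this c hc hy2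
  simp only [List.mem_cons, List.not_mem_nil, or_false] at this
  rcases this with rfl | rfl | rfl | rfl | rfl | rfl | rfl | rfl | rfl | rfl | rfl | rfl
  all_goals simp only [PC.ev, Nat.reduceDiv, Nat.reduceMod, pow_zero, pow_one, one_mul, mul_one]
  exacts [.inl trivial, .inr (.inl trivial), .inr (.inr ⟨0, 0, by simp⟩), .inr (.inr ⟨0, 1, by simp⟩),
    .inr (.inr ⟨1, 0, by simp⟩), .inr (.inr ⟨1, 1, by simp⟩), .inr (.inr ⟨2, 0, by simp⟩),
    .inr (.inr ⟨2, 1, by simp⟩), .inr (.inr ⟨3, 0, by simp⟩), .inr (.inr ⟨3, 1, by simp⟩),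
    .inr (.inr ⟨4, 0, by simp⟩), .inr (.inr ⟨4, 1, by simp [mul_assoc]⟩)]

theorem anti4_cent [Finite G] {E : Subgroup G} {z a b c d : G} (h : XC E z) (hc : Nat.card E = 32)
    (A : Anti4 E a b c d) {K : Subgroup G} (h1 : a ∈ K) (h2 : b ∈ K) (h3 : c ∈ K) (h4 : d ∈ K)
    (h5 : z ∈ K) : E ≤ K := fun y hy => by
  obtain ⟨c, -, rfl⟩ := (A.coded h hc).surj y hy
  exact PC.gen_le_iff.2 (by simp [*]) (PC.ev_mem_gen _ _)

/-- action through a hom into a permutation group -/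
theorem exists_perm {ι : Type*} [Finite ι] {z : G} {x : ι → G} (zz : z * z = 1) (z1 : z ≠ 1)
    (cz : ∀ g, g * z = z * g) (anti : ∀ i j, i ≠ j → x i * x j = x j * x i * z)
    (h : ∀ g i, ∃ j s, g * x i * g⁻¹ = x j * iv z s) :
    ∃ (p : G →* Perm ι) (a : G → ι → ZMod 2), (∀ g i, g * x i * g⁻¹ = x (p g i) * iv z (a g i)) ∧
      ∀ g k i, a (g * k) i = a k i + a g (p k i) := by
  choose p a e using h
  have c : ∀ g s, g * iv z s * g⁻¹ = iv z s := fun g s => by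
    rw [iv_cz cz]; simp
  have m : ∀ g k i, p (g * k) i = p g (p k i) ∧ a (g * k) i = a k i + a g (p k i) := fun g k i =>
    anti_inj zz z1 cz anti (by
      rw [← e, add_comm, iv_add zz, ← mul_assoc, ← e, ← c g (a k i), conj_mul, ← e]; group)
  have o : ∀ i, p 1 i = i := fun i => (anti_inj zz z1 cz anti (t := 0) (by rw [← e]; simp)).1
  exact ⟨MonoidHom.mk' (fun g => ⟨p g, p g⁻¹, fun i => by rw [← (m ..).1]; simp [o],
    fun i => by rw [← (m ..).1]; simp [o]⟩) fun g k => Equiv.ext fun i => (m g k i).1, a, e,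
    fun g k i => (m g k i).2⟩

theorem exists_sp [Finite G] {E : Subgroup G} [E.Normal] {z : G} (h : XS E z)
    (cz : ∀ g, g * z = z * g) (hc : Nat.card E = 32) (h8 : NoE8 E z)
    (hC : centralizer (E : Set G) ≤ E) (e : G ⧸ E ≃* Perm (Fin 4)) : ∃ P : SP G, P.z = z := by
  obtain ⟨a, b, c, d, A⟩ := exists_anti4 h hc h8
  obtain ⟨X, hX⟩ : ∃ X : Fin 5 → G, X = ![a, b, c, d, a * (b * (c * d))] := ⟨_, rfl⟩
  have m1 := mul_mem A.mc A.md
  have m2 := mul_mem A.mb m1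
  have m : ∀ i, X i ∈ E := fun i => by
    fin_cases i <;> simp [hX, A.ma, A.mb, A.mc, A.md, mul_mem, m2]
  have bf : ∀ i j, i ≠ j → h9bf (X i) (X j) = 1 := fun i j hij => by
    fin_cases i <;> fin_cases j <;> first | exact absurd rfl hij |
      simp [hX, A.ma, A.mb, A.mc, A.md, m1, m2, h.bf_mul, h.mul_bf, h9bf_self, h9bf_comm b a,
        h9bf_comm c a, h9bf_comm c b, h9bf_comm d a, h9bf_comm d b, h9bf_comm d c, A.ab, A.ac, A.ad,
        A.bc, A.bd, A.cd, show (1 + 1 : ZMod 2) = 0 from rfl]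
  have qf : ∀ i, X i * X i = 1 := fun i => h9qf_eq_zero.1 (by
    fin_cases i <;>
      simp [hX, A.ma, A.mb, A.mc, A.md, m1, m2, h.bf_mul, h.qf_mul, h9qf_eq_zero.2, A.ab, A.ac, A.ad,
        A.bc, A.bd, A.cd, show (1 + 1 : ZMod 2) = 0 from rfl, A.qa, A.qb, A.qc, A.qd])
  have anti : ∀ i j, i ≠ j → X i * X j = X j * X i * z := fun i j hij =>
    h.of_bf (m j) (m i) (bf j i hij.symm)
  have nc : ∀ g i s, g * X i * g⁻¹ ≠ iv z s := fun g i s e => by
    obtain ⟨j, hj⟩ := exists_ne i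
    have : X i = iv z s := by
      rw [mul_inv_eq_iff_eq_mul, ← iv_cz cz] at e
      exact mul_left_cancel e
    have h1 := bf j i hj
    rw [this, h9bf_eq_one] at h1
    exact h1 (iv_cz cz _ _)
  obtain ⟨p, s, h1, -⟩ := exists_perm h.sq h.ne_one cz anti fun g i => by
    rcases anti4_invol h.toXC hc A (Normal.conj_mem ‹_› _ (m i) g) (by rw [conj_mul, qf]; simp) with
      e | e | e
    exacts [absurd e (by simpa using nc g i 0), absurd e (by simpa using nc g i 1), hX ▸ e]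
  have hk : p.ker = E := by
    refine le_antisymm (fun g hg => ?_) fun g hg => Equiv.ext fun i => ?_
    · let K : Subgroup G :=
        { carrier := {q | g * q * g⁻¹ = q ∨ g * q * g⁻¹ = q * z}
          one_mem' := by simp
          mul_mem' := fun {u v} hu hv => by
            have e : u * z * v = u * v * z := by rw [mul_assoc, ← cz, mul_assoc]
            rcases hu with hu | hu <;> rcases hv with hv | hv <;> rw [Set.mem_setOf, ← conj_mul, hu, hv]
            exacts [.inl rfl, .inr (mul_assoc ..).symm, .inr e,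
              .inl (by rw [← mul_assoc, e, mul_assoc, h.sq, mul_one])]
          inv_mem' := fun {u} hu => by
            rcases hu with hu | hu <;> simp [← conj_inv, hu, h.inv, cz] }
      have k : ∀ i, X i ∈ K := fun i => by
        have := h1 g i
        rw [show p g = 1 from hg] at this
        rcases h9_zmod2_cases (s g i) with e | e <;> simp [K, this, e]
      rw [hX] at k
      obtain ⟨y, hy, e⟩ := h.exists_inner (cz g) (anti4_cent h.toXC hc A (K := K) (k 0) (k 1)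
        (k 2) (k 3) (.inl (by simp [cz g])))
      simpa using mul_mem hy (hC fun q hq => (e q hq).symm)
    · rcases h.conj hg (m i) with e | e
      · exact (anti_inj h.sq h.ne_one cz anti (t := 0) (by rw [← h1, e]; simp)).1
      · exact (anti_inj h.sq h.ne_one cz anti (t := 1) (by rw [← h1, e]; simp)).1
  have hi : E.index = 24 := by
    rw [index_eq_card, Nat.card_congr e.toEquiv]; simp [Fintype.card_perm, Nat.factorial]
  obtain ⟨g, hg⟩ := QuotientGroup.mk'_surjective E (e.symm (finRotate 4))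
  have hg' : ∀ n : ℕ, p g ^ n = 1 ↔ finRotate 4 ^ n = 1 := fun n => by
    rw [← map_pow, ← MonoidHom.mem_ker, hk, ← QuotientGroup.eq_one_iff, ← QuotientGroup.mk'_apply,
      map_pow, hg, ← map_pow, MulEquiv.map_eq_one_iff]
  obtain ⟨i, hi0⟩ := fix5 (H := p.range) (by rw [← index_ker, hk, hi]) ⟨g, rfl⟩
    ((hg' 4).2 (by decide)) (mt (hg' 2).1 (by decide))
  have anti' : ∀ j k, j ≠ k → X (i.succAbove j) * X (i.succAbove k) =
      X (i.succAbove k) * X (i.succAbove j) * z := fun j k e => anti _ _ (by simpa)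
  obtain ⟨q, t, h2, h3⟩ := exists_perm h.sq h.ne_one cz anti' fun g j => by
    obtain ⟨k, e⟩ := Fin.exists_succAbove_eq (x := p g (i.succAbove j)) (y := i) fun e =>
      Fin.succAbove_ne i j ((p g).injective (e.trans (hi0 _ ⟨g, rfl⟩).symm))
    exact ⟨k, _, e ▸ h1 g _⟩
  let θ : G →* SW := MonoidHom.mk' (fun g => ⟨q g, t g⟩) fun g k => SW.ext (map_mul ..) (funext (h3 g k))
  have ker : ∀ g, θ g = 1 → g = 1 ∨ g = z := fun g hg => by
    have k : ∀ j, X (i.succAbove j) ∈ centralizer {g} := fun j => by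
      have := h2 g j
      rw [show q g = 1 from congrArg SW.p hg, show t g = 0 from congrArg SW.a hg] at this
      exact mem_centralizer_singleton_iff.2 (Eq.symm (by simpa [mul_inv_eq_iff_eq_mul] using this))
    have b := fun j k (e : j ≠ k) => bf (i.succAbove j) (i.succAbove k) (by simpa)
    have := anti4_cent h.toXC hc ⟨m _, m _, m _, m _, qf _, qf _, qf _, qf _, b 0 1 (by simp),
      b 0 2 (by simp), b 0 3 (by simp), b 1 2 (by simp), b 1 3 (by simp), b 2 3 (by simp)⟩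
      (k 0) (k 1) (k 2) (k 3) (mem_centralizer_singleton_iff.2 (cz g).symm)
    have h4 := fun q hq => mem_centralizer_singleton_iff.1 (this (x := q) hq)
    exact h.center g (hC h4) fun q hq => (h4 q hq).symm
  refine ⟨⟨z, fun j => X (i.succAbove j), θ, h.sq, h.ne_one, cz, fun _ => qf _, anti', h2,
    MonoidHom.range_eq_top.1 (eq_top_of_le_card _ ?_), ker⟩, rfl⟩
  have h5 := θ.ker.card_mul_index
  have h6 : Nat.card θ.ker ≤ 2 := by
    rw [← h.orderOf, ← Nat.card_zpowers]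
    exact card_le_of_le fun g hg => h.mem_zpowers.2 (ker g hg)
  rw [← E.card_mul_index, hc, hi, index_ker] at h5
  rw [SW.card]
  nlinarith

end Cfsg.Lib.L34
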