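import Cfsg.Agent.Lib.L34.X1

/-!
# Computations with signed permutations
-/

set_option autoImplicit false
set_option linter.unusedSectionVars false

namespace Cfsg.Lib.L34
open Subgroup Cfsg.Lib Equiv

namespace SW
/-- parity of the signs -/
def σ (w : SW) : ZMod 2 := za (za (za (w.a 0) (w.a 1)) (w.a 2)) (w.a 3)
theorem σ_def (w : SW) : w.σ = w.a 0 + w.a 1 + w.a 2 + w.a 3 := rfl
/-- parity of a permutation -/
def pe (p : Perm (Fin 4)) : ZMod 2 :=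
  if (p 1 < p 0 ^^ p 2 < p 0 ^^ p 3 < p 0 ^^ p 2 < p 1 ^^ p 3 < p 1 ^^ p 3 < p 2) then 1 else 0
/-- parity of the permutation -/
def ε (w : SW) : ZMod 2 := pe w.p
/-- determinant -/
def lam (w : SW) : ZMod 2 := w.σ + w.ε
/-- minus the identity -/
def neg : SW := ⟨Equiv.refl _, fun _ => 1⟩
/-- image of a generator -/
def xi (j : Fin 4) : SW := ⟨Equiv.refl _, fun i => if i = j then 0 else 1⟩
/-- first double transposition -/
def t0 : SW := ⟨pm 3 2 1 0 3 2 1 0, fun _ => 0⟩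
/-- a three-cycle -/
def r : SW := ⟨pm 1 2 0 3 2 0 1 3, fun _ => 0⟩
theorem σ_mul (u w : SW) : (u * w).σ = u.σ + w.σ := by
  have := Equiv.sum_comp w.p u.a
  simp only [Fin.sum_univ_four] at this
  simp only [σ_def, mul_a]
  linear_combination this
theorem ε_mul (u w : SW) : (u * w).ε = u.ε + w.ε :=
  (by decide +kernel : ∀ a b : Perm (Fin 4), pe (a * b) = pe a + pe b) _ _
theorem lam_mul (u w : SW) : (u * w).lam = u.lam + w.lam := by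
  simp only [lam, σ_mul, ε_mul]; ring
/-- the abelian quotient -/
def φ : SW →* Multiplicative (ZMod 2 × ZMod 2) :=
  MonoidHom.mk' (fun w => Multiplicative.ofAdd (w.σ, w.ε)) fun u w => by
    simp [σ_mul, ε_mul, ← ofAdd_add]
theorem φ_eq {u w : SW} : φ u = φ w ↔ u.σ = w.σ ∧ u.ε = w.ε := by simp [φ]
/-- image of `S` -/
def S : Subgroup SW where
  carrier := {w | w.ε = 0 ∧ w.σ = 0 ∧ w.p (w.p 0) = 0 ∧ w.p (w.p 1) = 1}
  one_mem' := by decide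
  mul_mem' := fun {u w} hu hw => ⟨by simp [ε_mul, hu.1, hw.1], by simp [σ_mul, hu.2.1, hw.2.1],
    (by decide +kernel : ∀ a : Perm (Fin 4), pe a = 0 → a (a 0) = 0 ∧ a (a 1) = 1 → ∀ b : Perm (Fin 4),
      pe b = 0 → b (b 0) = 0 ∧ b (b 1) = 1 → a (b (a (b 0))) = 0 ∧ a (b (a (b 1))) = 1)
      _ hu.1 hu.2.2 _ hw.1 hw.2.2⟩
  inv_mem' := fun {u} => by revert u; decide +kernel
instance : DecidablePred (· ∈ S) := fun w =>
  inferInstanceAs (Decidable (w.ε = 0 ∧ w.σ = 0 ∧ w.p (w.p 0) = 0 ∧ w.p (w.p 1) = 1))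
/-- image of `A` -/
def A : Subgroup SW where
  carrier := {w | w ∈ S ∧ w.a 0 = w.a 1 ∧ w.a 0 = w.a 2}
  one_mem' := by decide
  mul_mem' := fun {u w} h => (by decide +kernel : ∀ u, u ∈ S ∧ u.a 0 = u.a 1 ∧ u.a 0 = u.a 2 → ∀ w,
    w ∈ S ∧ w.a 0 = w.a 1 ∧ w.a 0 = w.a 2 → u * w ∈ S ∧ (u * w).a 0 = (u * w).a 1 ∧
      (u * w).a 0 = (u * w).a 2) u h w
  inv_mem' := fun {u} => by revert u; decide +kernel
instance : DecidablePred (· ∈ A) := fun w =>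
  inferInstanceAs (Decidable (w ∈ S ∧ w.a 0 = w.a 1 ∧ w.a 0 = w.a 2))
/-- image of `T` -/
def T : Subgroup SW where
  carrier := {w | w.p * t0.p = t0.p * w.p}
  one_mem' := by decide
  mul_mem' := fun {u w} hu hw => Commute.mul_left hu hw
  inv_mem' := fun {u} hu => Commute.inv_left hu
instance : DecidablePred (· ∈ T) := fun w => decidable_of_iff (∀ i, w.p (t0.p i) = t0.p (w.p i))
  ⟨fun h => Equiv.ext h, fun h i => DFunLike.congr_fun h i⟩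

theorem d1 : ∀ w : SW, w * w = 1 → (∃ i j, i ≠ j ∧ w.p i = i ∧ w.p j = j ∧ w.a i = w.a j) ∨
    (∃ i j k, i ≠ j ∧ i ≠ k ∧ j ≠ k ∧ w.p i = j ∧ w.p j = i ∧ w.p k = k ∧ w.a i = w.a j ∧ w.a k = 1) ∨
    ∃ i j, w.p i = j ∧ w.p j = i ∧ w.a i = w.a j ∧ w.lam = 0 ∧ i ≠ j ∧
      ∀ f ∈ ({⟨swap i j, 0⟩, ⟨swap i j, 0⟩ * (xi i * xi j)} : Set SW),
        f * w * f⁻¹ = w ∧ f * f = 1 ∧ f.lam = 1 := by
  simp only [Set.mem_insert_iff, Set.mem_singleton_iff, forall_eq_or_imp, forall_eq]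
  decide +kernel
theorem d2 : ∀ w : SW, w.p = 1 → ∃ a b c d : ZMod 2,
    w = iv (xi 0) a * iv (xi 1) b * iv (xi 2) c * iv (xi 3) d := by
  rintro ⟨p, a⟩ rfl; revert a; decide +kernel
theorem d3 : ∀ w : SW, w * w * (w * w) = 1 → w * w ∈ S := by decide +kernel
theorem d4 : ∀ w ∈ S, w * w = 1 → w = 1 ∨ w = neg ∨ (∃ i j, i ≠ j ∧ w = xi i * xi j) ∨
    ∃ i j : Fin 3, ∃ k : ZMod 2, w = iv (xi i.castSucc) k * r ^ (j : ℕ) * t0 *
      (iv (xi i.castSucc) k * r ^ (j : ℕ))⁻¹ ∨ w = xi 3 * iv (xi i.castSucc) k * r ^ (j : ℕ) * t0 *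
      (xi 3 * iv (xi i.castSucc) k * r ^ (j : ℕ))⁻¹ := by decide +kernel
theorem d5 : ∀ w ∈ S, (w * r) ^ 3 = 1 ∨ (w * r) ^ 3 = neg := by decide +kernel
theorem d6 : ∀ u ∈ S, u * u = neg → ∀ v ∈ S, v * v = neg → u * v * (u * v) = neg → ∀ w ∈ S,
    w * w = neg → u * w * (u * w) = neg →
      v⁻¹ * w = 1 ∨ v⁻¹ * w = neg ∨ (u * v)⁻¹ * w = 1 ∨ (u * v)⁻¹ * w = neg := by decide +kernel
theorem d7 : ∀ d ∈ A, d ≠ 1 → d ≠ neg → ∀ w : SW, w * d = d * w → w.σ = 0 ∧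
    (w.ε = 0 → w ∈ S) ∧ (w.ε ≠ 0 → ∀ k ∈ A, k * w = w * k →
      k = 1 ∨ k = neg ∨ d * k = 1 ∨ d * k = neg) := by decide +kernel
theorem d8 : ∀ w ∈ S, w * w = 1 → w.p ≠ 1 → w ∈ A ∨ (xi 3)⁻¹ * w * xi 3 ∈ A := by decide +kernel
theorem d9 : ∀ w : SW, (∀ u ∈ ({⟨swap 0 3, 0⟩, ⟨swap 0 1 * swap 2 3, 0⟩} : Set SW), w * u * w⁻¹ ∈ T) →
    w ∈ T := by
  simp only [Set.mem_insert_iff, Set.mem_singleton_iff, forall_eq_or_imp, forall_eq]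
  decide +kernel
theorem d10 : ∀ w ∈ T, w ^ 8 = 1 ∧ (φ w = 1 ↔ w ∈ S) := by decide +kernel
theorem d11 : ∀ w ∈ A, ∃ a b c : ZMod 2, w = iv t0 a * iv (r * t0 * r⁻¹) b * iv neg c := by
  decide +kernel
theorem d12 : ∀ w ∈ S, ∃ a b : ZMod 2, w * iv (xi 0 * xi 3) a * iv (xi 1 * xi 3) b ∈ A := by
  decide +kernel
theorem d13 : ∀ w : SW, w.ε = 0 → w.lam = 0 → w ^ 8 = 1 → w ∈ S := by decide +kernel
theorem d14 : ∀ w : SW, w * neg * w⁻¹ = neg ∧ (w ∈ S → w * w = 1 ∨ w * w = neg) := by decide +kernel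
theorem d15 : ∀ w : SW, w.σ = 0 → ∀ u ∈ A, w * u * w⁻¹ ∈ A := by decide +kernel
theorem d16 : ∀ u ∈ S, ∀ w : SW, w * u * w⁻¹ ∈ S := by decide +kernel
end SW

end Cfsg.Lib.L34
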